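import Cfsg.Agent.H240.G2S.Split
import Cfsg.Agent.H210.TC.Row

/-!
# S2452: one class of prime order from a regular element of the split torus (helper240)

* `two_of_pc` : the product statement of `H240.E8S.t6_of_pc`;
* `two_of_torus`, `row3_of_torus` : `s ∈ T` regular: every `g ≠ 1` is a product of two conjugates of `s`; `Row3`;
* `row3_G2_split` : `G₂(q)`, a prime `r ≥ 7` dividing `q - 1`.
-/

set_option autoImplicit false
set_option linter.unusedSectionVars false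

namespace Cfsg.Agent.H240.TW

open CoxeterSystem Cfsg.Agent.ChevalleyStructure.CoxeterGeom Cfsg.Agent.Tits.Roots Cfsg.Agent.Tits.Core
  Cfsg.Agent.Nodes.Reps Cfsg.Agent.Nodes.BNOf Cfsg.Agent.Nodes.RGDLib Cfsg.Agent.Nodes.Bruhat
  Cfsg.Agent.Nodes.OppDec Cfsg.Agent.Nodes.LeviDec Cfsg.Agent.Nodes.KindChev Cfsg.Agent.Nodes.ChevCls
  Cfsg.Agent.OddHalf.NI.ModelChev Cfsg.Agent.Nodes.StabComb
  Cfsg.Agent.H162.GaussDec Cfsg.Agent.H162.GaussLevi Cfsg.Agent.H162.GaussSL Cfsg.Agent.H162.GaussReg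
  Cfsg.Agent.H162.GaussPQ
  Cfsg.Agent.H928.Ore.Frame Cfsg.Agent.H928.Ore.Fix
open Cfsg.Lie Cfsg.Agent.ChevalleyStructure Cfsg.Agent.ChevalleyStructure.Elts
  Cfsg.Agent.ChevalleyStructure.RootVec Cfsg.Agent.ChevalleyStructure.NPerm
  Cfsg.Agent.ChevalleyStructure.CoxeterGeomTypes Cfsg.Agent.Nodes.RGDChev Cfsg.Agent.KFacts.RgdChevCoord
open Cfsg.Agent.H162.GaussExc (coord)
open Cfsg.Agent.H122.Pw Cfsg.Agent.H240.E8S Cfsg.Agent.H240.G2S
open Cfsg.Agent.H482.Ore.Fix (Dz ch_mul)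

universe u

section

variable {D : ChevalleyDatum} {l : ℕ} {M : CoxeterMatrix (Fin l)} {hp : IsType D l M} {K : Type u} [Field K]
  {J : Set (Fin l)} {G : Type*} [Group G] {φ : G →* ↥(D.group K)} {L U : Subgroup G} {Q : ℕ → Prop}

/-- **Two fixed classes.** -/
theorem two_of_pc [Finite K] (h : Pc hp K J φ L U Q) (hQ : ∀ q < D.nroots, (∀ k, k ∉ J → vec D l q k = 0) → Q q)
    (hl : 0 < l) (hS : IsSimpleGroup ↥(D.group K))
    (hM : ∀ J : Finset (Fin l), J = ∅ ∨ J = Finset.univ ∨ ∃ a ∈ J, ∃ b, b ∉ J ∧ M a b ≠ 2)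
    {k x y : G} (hk : φ k ∈ TT D K)
    (hP : ∀ v ∈ L, ∀ u ∈ U, ∃ a b, v * k * u = (a * x * a⁻¹) * (b * y * b⁻¹))
    (hx : NF (VJ M.toCoxeterSystem hp.isCartan (XX D l K) J) (φ x) ∧
      NF (VNJ M.toCoxeterSystem hp.isCartan (XX D l K) J) (φ x))
    (hy : NF (VJ M.toCoxeterSystem hp.isCartan (XX D l K) J) (φ y) ∧
      NF (VNJ M.toCoxeterSystem hp.isCartan (XX D l K) J) (φ y)) (g : ↥(D.group K)) (hg : g ≠ 1) :
    ∃ u v : ↥(D.group K), g = (u * φ x * u⁻¹) * (v * φ y * v⁻¹) := by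
  obtain ⟨p, hpc⟩ := CharP.exists K
  have : Fact p.Prime := ⟨(CharP.char_is_prime_or_zero K p).resolve_right (CharP.char_ne_zero_of_finite K p)⟩
  have := finite_W hp M.toCoxeterSystem
  have : Nonempty (Fin l) := ⟨⟨0, hl⟩⟩
  have R := rgd (K := K) hp M.toCoxeterSystem p
  obtain ⟨c₁, c₂, z, w, ⟨⟨z', hz⟩, w', hw⟩, e⟩ := Cfsg.Agent.H122.SX.pair_h (rgd (K := K) hp M.toCoxeterSystem p)
    (G1_eq_top hp _) (coord hp) (Cfsg.Agent.Nodes.ChevChart.irr_of hM) (J := J)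
    (Pr := fun c₁ c₂ : ↥(D.group K) => (∃ z, c₁ = z * φ x * z⁻¹) ∧ ∃ w, c₂ = w * φ y * w⁻¹) hk
    (fun v hv u hu => by
      obtain ⟨v, hv', rfl⟩ := h.exists_lo hQ hv
      obtain ⟨u, hu', rfl⟩ := h.exists_up hQ hu
      obtain ⟨a, b, e⟩ := hP v hv' u hu'
      refine ⟨φ (a * x * a⁻¹), φ (b * y * b⁻¹), by rw [← map_mul, ← map_mul, e, map_mul],
        ⟨h.mem _, h.mem _, ?_, ?_⟩, ⟨φ a, by rw [map_mul, map_mul, map_inv]⟩, φ b, by rw [map_mul, map_mul, map_inv]⟩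
      · rw [map_mul, map_mul, map_inv]
        exact NF.conj (LJ_le_normalizer_VNJ R J (h.mem a)) hx.2
      · rw [map_mul, map_mul, map_inv]
        exact NF.conj (LJ_le_normalizer_VJ R J (h.mem b)) hy.1)
    (Cfsg.Agent.H224.Ore.Row.not_mem_core hl hS p hp hg)
  refine ⟨z * z', w * w', ?_⟩
  rw [e, hz, hw]
  group

end

section

variable {D : ChevalleyDatum} {l : ℕ} {M : CoxeterMatrix (Fin l)} (hp : IsType D l M) {K : Type u} [Field K]

/-- **A regular element of the split torus.** -/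
theorem two_of_torus [Finite K] (hl : 0 < l) (hS : IsSimpleGroup ↥(D.group K))
    (hM : ∀ J : Finset (Fin l), J = ∅ ∨ J = Finset.univ ∨ ∃ a ∈ J, ∃ b, b ∉ J ∧ M a b ≠ 2)
    (h0 : ∀ q < D.nroots, ∃ k, vec D l q k ≠ 0)
    {s : ↥(D.group K)} (hs : s ∈ TT D K) (hreg : ∀ q < D.nroots, ch hp (vec D l q) s ≠ 1)
    (g : ↥(D.group K)) (hg : g ≠ 1) : ∃ u v : ↥(D.group K), g = (u * s * u⁻¹) * (v * s * v⁻¹) := by
  obtain ⟨p, hpc⟩ := CharP.exists K
  have : Fact p.Prime := ⟨(CharP.char_is_prime_or_zero K p).resolve_right (CharP.char_ne_zero_of_finite K p)⟩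
  have hnf := (Dz.torus (f := RingHom.id K) (J := (∅ : Set (Fin l))) hp hs).nf hp p fun q hq _ => hreg q hq
  refine two_of_pc (pc_torus hp) (fun q hq h => ?_) hl hS hM (k := ⟨s, hs⟩ * ⟨s, hs⟩) (x := ⟨s, hs⟩) (y := ⟨s, hs⟩)
    (by exact mul_mem hs hs) ?_ hnf hnf g hg
  · obtain ⟨k, hk⟩ := h0 q hq
    exact hk (h k (Set.notMem_empty k))
  · rintro v hv u hu
    rw [Subgroup.mem_bot] at hv hu
    exact ⟨1, 1, by rw [hv, hu]; group⟩

/-- **A regular element of prime order of the split torus: `Row3`.** -/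
theorem row3_of_torus [Finite K] (hl : 0 < l) (hS : IsSimpleGroup ↥(D.group K))
    (hM : ∀ J : Finset (Fin l), J = ∅ ∨ J = Finset.univ ∨ ∃ a ∈ J, ∃ b, b ∉ J ∧ M a b ≠ 2)
    (h0 : ∀ q < D.nroots, ∃ k, vec D l q k ≠ 0)
    {s : ↥(D.group K)} (hs : s ∈ TT D K) (hreg : ∀ q < D.nroots, ch hp (vec D l q) s ≠ 1)
    (hr : (orderOf s).Prime) (h6 : Nat.Coprime (orderOf s) 6) : Cfsg.Agent.H210.TC.Row3 ↥(D.group K) :=
  Cfsg.Agent.H210.TC.Row3.of_sq hr h6 fun g hg => two_of_torus hp hl hS hM h0 hs hreg g hg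

end

/-! ### `G₂(q)` -/

variable {K : Type u} [Field K] [Finite K]

/-- **`G₂(q)`, a prime `r ≥ 7` dividing `q - 1`.** -/
theorem row3_G2_split {r : ℕ} (hr : r.Prime) (h7 : 7 ≤ r) (hd : r ∣ Nat.card K - 1) :
    Cfsg.Agent.H210.TC.Row3 ↥(chevG2.group K) := by
  have hK : 1 < Nat.card K := Finite.one_lt_card
  have hS : IsSimpleGroup ↥(chevG2.group K) := by
    refine (Cfsg.Agent.S1055.result ?_).1
    classical
    have := Fintype.ofFinite K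
    have h2 := Nat.le_of_dvd (by omega) hd
    by_contra hcon
    push Not at hcon
    have h4 : Fintype.card K ≤ 2 := by
      have h5 : (Finset.univ : Finset K) ⊆ {0, 1} := fun a _ => by
        by_cases h6 : a = 0
        · simp [h6]
        · simp [hcon a h6]
      calc Fintype.card K = (Finset.univ : Finset K).card := rfl
        _ ≤ ({0, 1} : Finset K).card := Finset.card_le_card h5
        _ ≤ 2 := Finset.card_le_two
    rw [← Nat.card_eq_fintype_card] at h4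
    omega
  -- an element of order `r` of the field
  obtain ⟨g, hg⟩ := IsCyclic.exists_ofOrder_eq_natCard (α := Kˣ)
  have hcu : Nat.card Kˣ = Nat.card K - 1 := Nat.card_units K
  rw [hcu] at hg
  obtain ⟨k, hk⟩ := hd
  have hk0 : k ≠ 0 := by
    rintro rfl
    omega
  obtain ⟨ζ, hζ⟩ : ∃ ζ : Kˣ, orderOf ζ = r := ⟨g ^ k, by
    rw [orderOf_pow_of_dvd hk0 (by rw [hg, hk]; exact dvd_mul_left _ _), hg, hk,
      Nat.mul_div_cancel _ (Nat.pos_of_ne_zero hk0)]⟩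
  have hz : ∀ n : ℤ, ((ζ ^ n : Kˣ) : K) ^ r = 1 := fun n => by
    have h7 : (ζ ^ n) ^ r = 1 := by rw [← zpow_natCast, ← zpow_mul, mul_comm, zpow_mul, zpow_natCast, ← hζ,
      pow_orderOf_eq_one, one_zpow]
    rw [← Units.val_pow_eq_pow_val, h7, Units.val_one]
  obtain ⟨s, hs⟩ : ∃ s, s = hc tyG 0 ((ζ ^ (3 : ℤ) : Kˣ) : K) * hc tyG 1 ((ζ ^ (5 : ℤ) : Kˣ) : K) := ⟨_, rfl⟩
  have h1 : hc tyG 0 ((ζ ^ (3 : ℤ) : Kˣ) : K) ∈ TT chevG2 K := hc_mem tyG 0 (Units.ne_zero _)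
  have h2 : hc tyG 1 ((ζ ^ (5 : ℤ) : Kˣ) : K) ∈ TT chevG2 K := hc_mem tyG 1 (Units.ne_zero _)
  have hsT : s ∈ TT chevG2 K := hs ▸ mul_mem h1 h2
  have hreg : ∀ q < chevG2.nroots, ch tyG (vec chevG2 2 q) s ≠ 1 := fun q hq => by
    have e : ch tyG (vec chevG2 2 q) s = ((ζ ^ ex q : Kˣ) : K) := by
      rw [hs, ch_mul tyG hq h1 h2, ch_hc tyG 0 (Units.ne_zero _) hq, ch_hc tyG 1 (Units.ne_zero _) hq, ex]
      push_cast
      rw [← zpow_mul, ← zpow_mul, ← zpow_add₀ (Units.ne_zero ζ)]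
      rfl
    rw [e]
    intro h7
    have h8 : ζ ^ ex q = 1 := Units.ext h7
    rw [← orderOf_dvd_iff_zpow_eq_one, hζ] at h8
    obtain ⟨h9, h10, h11⟩ := ex_tab q hq
    have h12 := Int.le_of_dvd (b := |ex q|) (by positivity) ((dvd_abs _ _).2 h8)
    have h13 : |ex q| ≤ 5 := abs_le.2 ⟨h10, h11⟩
    omega
  have hs1 : s ^ r = 1 := by
    have hcomm : Commute (hc tyG 0 ((ζ ^ (3 : ℤ) : Kˣ) : K)) (hc tyG 1 ((ζ ^ (5 : ℤ) : Kˣ) : K)) :=
      congrArg Subtype.val (Cfsg.Agent.OddHalf.NI.ModelChev.comm_TT tyG ⟨_, h1⟩ ⟨_, h2⟩)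
    rw [hs, hcomm.mul_pow, hc_pow_one tyG 0 (Units.ne_zero _) (hz 3), hc_pow_one tyG 1 (Units.ne_zero _) (hz 5), one_mul]
  have hne : s ≠ 1 := by
    rintro h
    refine hreg 0 (by decide) ?_
    rw [h]
    exact map_one (chH tyG (K := K) (r := 0) (by decide))
  have := Fact.mk hr
  have ho : orderOf s = r := orderOf_eq_prime hs1 hne
  refine row3_of_torus tyG (by norm_num) hS Cfsg.Agent.Nodes.ChevChart.irrG vecG hsT hreg (ho ▸ hr) ?_
  rw [ho]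
  refine Nat.Coprime.symm (Nat.Coprime.mul_left (m := 2) (n := 3) ?_ ?_)
  · exact (Nat.coprime_primes Nat.prime_two hr).2 (by omega)
  · exact (Nat.coprime_primes Nat.prime_three hr).2 (by omega)

/-- **`G₂(8)`.** -/
theorem row3_G2_eight (hK : Nat.card K = 8) : Cfsg.Agent.H210.TC.Row3 ↥(chevG2.group K) :=
  row3_G2_split (r := 7) (by norm_num) le_rfl (by rw [hK])

end Cfsg.Agent.H240.TW
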